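import Cfsg.Agent.Lib.I2.EOcN

/-!
# Linear algebra for package EOc: monomial alternating maps
-/

set_option autoImplicit false

namespace Cfsg.Agent.I2.Eoc

open Module TensorProduct Cfsg.Agent.Suz2

variable {U V : Type*} [AddCommGroup U] [Module (ZMod 2) U] [AddCommGroup V] [Module (ZMod 2) V]
  [Finite U] [Finite V] {x : End (ZMod 2) U} {y : End (ZMod 2) V} {n d : ℕ}

omit [Finite U] in
theorem one_tmul_eq_zero {u : U} (h : (1 : KK) ⊗ₜ[ZMod 2] u = 0) : u = 0 :=
  (Module.FaithfullyFlat.one_tmul_eq_zero_iff (ZMod 2) _ _).1 h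

/-- the basis of eigenvectors -/
theorem exists_basis (h : VSpec x n d) : ∃ (κ : KK) (b : Basis (Fin n) KK (BC U)), orderOf κ = d ∧
    (∀ k : Fin n, x.baseChange KK (b k) = κ ^ 2 ^ (k : ℕ) • b k) ∧
    (∀ ν w, x.baseChange KK w = ν • w → ∀ k, b.repr w k ≠ 0 → ν = κ ^ 2 ^ (k : ℕ)) ∧
    ∀ u : U, u ≠ 0 → ∀ k, b.repr (1 ⊗ₜ u) k ≠ 0 := by
  classical
  have hn : 0 < n := Nat.pos_of_ne_zero fun e => h.num.not_dvd_n (e ▸ dvd_zero d)
  have hfr : Fintype.card (Fin n) = finrank KK (BC U) := by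
    have := Module.natCard_eq_pow_finrank (K := ZMod 2) (V := U)
    rw [h.card, Nat.card_zmod] at this
    rw [Fintype.card_fin, Module.finrank_baseChange, Nat.pow_right_injective le_rfl this]
  have : Nontrivial (BC U) := Module.nontrivial_of_finrank_pos (R := KK) (by simpa [← hfr])
  obtain ⟨κ, hκ⟩ := Module.End.exists_eigenvalue (x.baseChange KK)
  obtain ⟨w, hw, h0⟩ := hκ.exists_hasEigenvector
  rw [Module.End.mem_eigenspace_iff] at hw
  have ho := h.orderOf_eq ⟨w, h0, hw⟩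
  have hv : ∀ k : ℕ, (fr U ^ k) w ≠ 0 ∧
      x.baseChange KK ((fr U ^ k) w) = κ ^ 2 ^ k • (fr U ^ k) w := fun k => by
    refine ⟨(LinearEquiv.map_ne_zero_iff _).2 h0, ?_⟩
    induction k with
    | zero => simpa using hw
    | succ k ih => rw [pow_succ', LinearEquiv.mul_apply, fr_eigen ih, ← pow_mul, pow_succ]
  have hinj : Function.Injective fun k : Fin n => κ ^ 2 ^ (k : ℕ) := fun i k e =>
    Fin.ext (h.num.inj ho i.2 k.2 e)
  have hli := Module.End.eigenvectors_linearIndependent' (x.baseChange KK) _ hinj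
    (fun k : Fin n => (fr U ^ (k : ℕ)) w) fun k =>
      ⟨Module.End.mem_eigenspace_iff.2 (hv k).2, (hv k).1⟩
  have : Nonempty (Fin n) := ⟨⟨0, hn⟩⟩
  let b := basisOfLinearIndependentOfCardEqFinrank hli hfr
  have hb : ∀ k : Fin n, b k = (fr U ^ (k : ℕ)) w := fun k => by simp [b]
  have key : ∀ ν w', x.baseChange KK w' = ν • w' → ∀ k, b.repr w' k ≠ 0 → ν = κ ^ 2 ^ (k : ℕ) :=
    fun ν w' hw' k hk => by
      have e1 : x.baseChange KK w' = ∑ i : Fin n, (κ ^ 2 ^ (i : ℕ) * b.repr w' i) • b i := by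
        conv_lhs => rw [← b.sum_repr w', map_sum]
        refine Finset.sum_congr rfl fun i _ => ?_
        rw [map_smul, hb, (hv i).2, smul_smul, mul_comm]
      have e2 := congrArg (fun v => b.repr v k) (hw'.symm.trans e1)
      exact mul_right_cancel₀ hk (by simpa [Finsupp.single_apply] using e2)
  refine ⟨κ, b, ho, fun k => hb k ▸ (hv k).2, key, fun u hu k hk => hu (one_tmul_eq_zero ?_)⟩
  have step : ∀ (i : ℕ) (hi : i + 1 < n),
      b.repr (1 ⊗ₜ u) ⟨i + 1, hi⟩ = b.repr (1 ⊗ₜ u) ⟨i, by omega⟩ ^ 2 := fun i hi => by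
    have e1 : (1 : KK) ⊗ₜ[ZMod 2] u = ∑ j : Fin n, b.repr (1 ⊗ₜ u) j ^ 2 • fr U (b j) := by
      simp_rw [← fr_smul]
      rw [← map_sum, b.sum_repr, fr_tmul, one_pow]
    conv_lhs => rw [e1]
    rw [map_sum, Finsupp.finsetSum_apply, Finset.sum_eq_single ⟨i, by omega⟩ (fun j _ hj => ?_)
      (by simp), map_smul, show fr U (b ⟨i, by omega⟩) = b ⟨i + 1, hi⟩ by
        rw [hb, hb, pow_succ', LinearEquiv.mul_apply]]
    · simp
    · rw [map_smul, Finsupp.smul_apply, smul_eq_mul]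
      refine mul_eq_zero_of_right _ (by_contra fun e => hj (hinj ?_))
      have := key _ _ (fr_eigen (hb j ▸ (hv j).2)) _ e
      rw [pow_succ 2 i, pow_mul] at this
      exact (frobenius KK 2).injective this
  have pw : ∀ (i : ℕ) (hi : i < n), b.repr (1 ⊗ₜ u) ⟨i, hi⟩ = 0 ↔ b.repr (1 ⊗ₜ u) ⟨0, hn⟩ = 0 :=
    fun i => by
      induction i with
      | zero => exact fun _ => Iff.rfl
      | succ i ih => exact fun hi => by rw [step i hi, pow_eq_zero_iff two_ne_zero, ih]
  exact b.repr.injective (Finsupp.ext fun j => by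
    rw [map_zero, Finsupp.zero_apply]; exact (pw j j.2).2 ((pw k k.2).1 hk))

/-- orthogonal vectors have the same image -/
theorem star (hx : VSpec x n d) (hy : VSpec y n d) (h4 : Num4 n d)
    {β : U →ₗ[ZMod 2] U →ₗ[ZMod 2] V} (alt : ∀ u, β u u = 0)
    (hβ : ∀ u v, β (x u) (x v) = y (β u v)) {w u : U} (hw : w ≠ 0) (e : β w u = 0) (v : U) :
    β u v ∈ LinearMap.range (β w) := by
  classical
  obtain ⟨κ, b, ho, hb, -, hr⟩ := exists_basis hx
  obtain ⟨κ', b', -, -, hc, -⟩ := exists_basis hy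
  have hfin : IsOfFinOrder κ := orderOf_pos_iff.1 (by rw [ho]; exact hx.num.one_lt.le)
  have eig : ∀ i j : Fin n, y.baseChange KK (bc2 β (b i) (b j)) =
      κ ^ (2 ^ (i : ℕ) + 2 ^ (j : ℕ)) • bc2 β (b i) (b j) := fun i j =>
    pow_add κ _ _ ▸ bc2_eigen hβ (hb i) (hb j)
  have exp : ∀ (a : BC U) (j : Fin n), bc2 β a (b j) = ∑ i, b.repr a i • bc2 β (b i) (b j) :=
    fun a j => by
      conv_lhs => rw [← b.sum_repr a, map_sum, LinearMap.sum_apply]
      simp only [map_smul, LinearMap.smul_apply]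
  set r := b.repr (1 ⊗ₜ w)
  set s := b.repr (1 ⊗ₜ u)
  have h1 : ∀ i j : Fin n, bc2 β (b i) (b j) ≠ 0 → r i * s j = r j * s i := fun i j h0 => by
    obtain ⟨k, hk⟩ : ∃ k, b'.repr (bc2 β (b i) (b j)) k ≠ 0 := by
      by_contra hcon
      push Not at hcon
      exact h0 (b'.repr.injective (Finsupp.ext fun k => by rw [hcon, map_zero, Finsupp.zero_apply]))
    have ne : ∀ i j : Fin n, bc2 β (b i) (b j) ≠ 0 → (i : ℕ) ≠ j := fun i j h0 e =>
      h0 (Fin.ext e ▸ bc2_alt alt _)
    have hg := hy.orderOf_eq ⟨_, h0, eig i j⟩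
    rw [hfin.orderOf_pow, ho, Nat.div_eq_self] at hg
    have e1 : ∑ p : Fin n × Fin n, r p.1 * s p.2 * b'.repr (bc2 β (b p.1) (b p.2)) k = 0 := by
      have e2 := bc2_tmul β 1 1 w u
      rw [e, tmul_zero, ← b.sum_repr (1 ⊗ₜ u), map_sum] at e2
      simp only [map_smul, exp (1 ⊗ₜ w), Finset.smul_sum, smul_smul] at e2
      have e3 := congrArg (fun v => b'.repr v k) e2
      simp only [map_sum, Finsupp.finsetSum_apply, map_smul, Finsupp.smul_apply, smul_eq_mul,
        map_zero, Finsupp.zero_apply] at e3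
      rw [Fintype.sum_prod_type_right, ← e3]
      exact Finset.sum_congr rfl fun _ _ => Finset.sum_congr rfl fun _ _ => by rw [mul_comm (r _)]
    rw [Finset.sum_eq_add_of_mem (i, j) (j, i) (Finset.mem_univ _) (Finset.mem_univ _)
      (fun e => ne i j h0 (congrArg (·.1.1) e)) fun p _ hp => ?_] at e1
    · rw [bc2_symm (symm_of_alt alt) (b j), ← add_mul] at e1
      exact CharTwo.add_eq_zero.1 ((mul_eq_zero.1 e1).resolve_right hk)
    refine mul_eq_zero_of_right _ (by_contra fun hp' => ?_)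
    have e2 := (hc _ _ (eig i j) k hk).trans (hc _ _ (eig p.1 p.2) k hp').symm
    rcases h4 _ i.2 _ j.2 _ p.1.2 _ p.2.2 (ne i j h0) (ne _ _ fun e => hp' (by simp [e]))
      (hg.resolve_left (by have := hx.num.one_lt; omega))
      (ho ▸ hfin.pow_eq_pow_iff_modEq.1 e2) with ⟨e3, e4⟩ | ⟨e3, e4⟩
    · exact hp.1 (Prod.ext (Fin.ext e3.symm) (Fin.ext e4.symm))
    · exact hp.2 (Prod.ext (Fin.ext e4.symm) (Fin.ext e3.symm))
  have h2 : ∀ j, bc2 β (1 ⊗ₜ u) (b j) = (s j / r j) • bc2 β (1 ⊗ₜ w) (b j) := fun j => by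
    rw [exp, exp, Finset.smul_sum]
    refine Finset.sum_congr rfl fun i _ => ?_
    by_cases h0 : bc2 β (b i) (b j) = 0
    · simp [h0]
    · rw [smul_smul, div_mul_eq_mul_div, mul_comm, h1 i j h0, mul_div_cancel_left₀ _ (hr w hw j)]
  have h3 : (LinearMap.range (β w)).mkQ.baseChange KK ∘ₗ bc2 β (1 ⊗ₜ u) = 0 := b.ext fun j => by
    rw [LinearMap.comp_apply, h2, map_smul, bc2_tmul', one_smul, ← LinearMap.comp_apply,
      ← LinearMap.baseChange_comp, LinearMap.range_mkQ_comp]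
    simp
  have h5 := LinearMap.congr_fun h3 (1 ⊗ₜ v)
  rw [LinearMap.comp_apply, bc2_tmul, one_mul, LinearMap.baseChange_tmul] at h5
  exact (Submodule.Quotient.mk_eq_zero _).1 (one_tmul_eq_zero h5)

omit [Finite U] in
/-- an involution moves a vector `w` whose image lies in that of `w + e w` -/
theorem exists_move {β : U →ₗ[ZMod 2] U →ₗ[ZMod 2] V} {σ : U → V} (alt : ∀ u, β u u = 0)
    (hσ : ∀ u v, σ (u + v) = σ u + σ v + β u v) (inj : Function.Injective σ)
    (hc : Nat.card U = Nat.card V)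
    (st : ∀ w u, w ≠ 0 → β w u = 0 → ∀ v, β u v ∈ LinearMap.range (β w))
    (h1 : ∀ u, σ (x u) = y (σ u)) (h2 : ∀ u v, β (x u) (x v) = y (β u v)) (h3 : ∀ u, x (x u) = u)
    {w : U} (hw : x w ≠ w) : ∃ w, w + x w ≠ 0 ∧ ∀ c, β w c ∈ LinearMap.range (β (w + x w)) := by
  obtain ⟨a, ha⟩ : ∃ a, a = w + x w := ⟨_, rfl⟩
  have a0 : a ≠ 0 := fun e => hw (add_left_cancel ((ha ▸ e).trans (add_self' w).symm))
  have xa : x a = a := by rw [ha, map_add, h3, add_comm]
  let π := (LinearMap.range (β a)).mkQ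
  have π0 : ∀ v, π v = 0 ↔ v ∈ LinearMap.range (β a) := fun v => Submodule.Quotient.mk_eq_zero _
  have πy : ∀ v v', π v = π v' → π (y v) = π (y v') := fun v v' e => by
    rw [← sub_eq_zero, ← map_sub] at e ⊢
    obtain ⟨t, ht⟩ := (π0 _).1 e
    exact (π0 _).2 ⟨x t, by rw [← map_sub, ← ht, ← h2, xa]⟩
  have add : ∀ u v, β a u = 0 → π (σ (u + v)) = π (σ u) + π (σ v) := fun u v e => by
    rw [hσ, map_add, map_add, (π0 _).2 (st a u a0 e v), add_zero]
  have hinj : ∀ u v, β a u = 0 → β a v = 0 → π (σ u) = π (σ v) → u = v := fun u v e e' h => by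
    have e1 : β (u + v) a = 0 := by rw [symm_of_alt alt, map_add, e, e', add_zero]
    obtain ⟨t, ht⟩ := (π0 _).1 ((add u v e).trans (by rw [h, add_self']))
    by_contra hne
    have h0 : u + v ≠ 0 := fun e => hne (add_right_cancel (e.trans (add_self' v).symm))
    obtain ⟨t', ht'⟩ := st _ a h0 e1 t
    refine h0 (add_eq_right.1 (inj (a₂ := t') ?_))
    rw [hσ, ht', ht, add_right_comm, add_self', zero_add]
  have hsurj : Function.Surjective fun u : LinearMap.ker (β a) => π (σ u) := by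
    have := Finite.of_surjective _ (LinearMap.range (β a)).mkQ_surjective
    refine ((Nat.bijective_iff_injective_and_card _).2
      ⟨fun u v e => Subtype.ext (hinj _ _ u.2 v.2 e), ?_⟩).2
    have e1 := Submodule.card_eq_card_quotient_mul_card (LinearMap.range (β a))
    have e2 := Submodule.card_eq_card_quotient_mul_card (LinearMap.ker (β a))
    rw [Nat.card_congr (β a).quotKerEquivRange.toEquiv, hc, e1, mul_comm] at e2
    exact (Nat.eq_of_mul_eq_mul_right Nat.card_pos e2).symm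
  obtain ⟨⟨u, hu⟩, e⟩ := hsurj (π (σ w))
  replace e : π (σ u) = π (σ w) := e
  have hu' : β a (x u) = 0 := by rw [← xa, h2, show β a u = 0 from hu, map_zero]
  have : u + x u = a := hinj _ _ (by rw [map_add, hu', show β a u = 0 from hu, add_zero]) (alt a) (by
    rw [add u _ hu, h1, πy _ _ e, e, congrArg σ ha, hσ, map_add, map_add, h1, (π0 (β w (x w))).2
      ⟨w, by rw [symm_of_alt alt, ha, map_add, alt, zero_add]⟩, add_zero])
  exact ⟨u, this ▸ a0, this ▸ st a u a0 hu⟩

theorem arith {j n f g r : ℕ} (h8 : 8 ≤ 2 ^ n) (hj : 1 < 2 ^ j) (h1 : f + g = 2 ^ j) (h2 : r ∣ 2 ^ j)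
    (h3 : f = 1 ∨ f = 2 ^ n) (e : f * f + g * (2 ^ n - 1) = 2 ^ j + (2 ^ j - 1) * r) : g = 0 := by
  obtain ⟨n, rfl⟩ : ∃ m, n = m + 3 := Nat.exists_eq_add_of_le'
    ((Nat.pow_le_pow_iff_right one_lt_two).1 (show 2 ^ 3 ≤ 2 ^ n from h8))
  obtain ⟨j, rfl⟩ : ∃ m, j = m + 1 := Nat.exists_eq_add_of_le' (Nat.pos_of_ne_zero (by
    rintro rfl; simp at hj))
  obtain ⟨q, hq⟩ : ∃ q, 2 ^ (n + 3) = q + 2 := Nat.exists_eq_add_of_le' (by omega)
  obtain ⟨N, hN⟩ : ∃ N, 2 ^ (j + 1) = N + 1 := Nat.exists_eq_add_of_le' (by omega)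
  have q2 : 2 ^ (n + 3) = 8 * 2 ^ n := by ring
  have N2 : 2 ^ (j + 1) = 2 * 2 ^ j := by ring
  rw [hq, hN, show q + 2 - 1 = q + 1 from rfl, Nat.add_sub_cancel] at e
  rcases h3 with rfl | rfl
  · obtain rfl : g = N := by omega
    obtain rfl : q = r := Nat.eq_of_mul_eq_mul_left (show 0 < g by omega) (by linarith)
    obtain ⟨i, -, rfl⟩ := (Nat.dvd_prime_pow Nat.prime_two).1 h2
    rcases i with _ | _ | i
    · omega
    · omega
    · rw [pow_add, pow_add] at hq; omega
  · rw [hq] at e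
    obtain rfl : N = q + 1 + g := by omega
    have h4 : q + 1 + g ∣ 2 * (q + 1) :=
      (Nat.dvd_add_right (dvd_mul_right _ q)).1 ⟨r, by linarith⟩
    obtain ⟨c, hc⟩ := h4
    rcases c with _ | _ | _ | c
    · omega
    · omega
    · omega
    · nlinarith

open Finset in
/-- an invariant quadratic map which separates the fibres of `σ` vanishes -/
theorem count {M ι : Type*} [AddCommGroup M] [Module (ZMod 2) M] [Nontrivial U] {σ : U → V}
    {ζ : U → M} {γ : U →ₗ[ZMod 2] U →ₗ[ZMod 2] M} (φ : ι → End (ZMod 2) U)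
    (hζ : ∀ u v, ζ (u + v) = ζ u + ζ v + γ u v) (h8 : 8 ≤ Nat.card V)
    (σ0 : ∀ u, σ u = 0 ↔ u = 0) (inj : ∀ u v, σ u = σ v → ζ u = ζ v → u = v)
    (sur : ∀ i, Function.Surjective (φ i)) (inv : ∀ i u, ζ (φ i u) = ζ u)
    (tr : ∀ u ≠ 0, ∀ v ≠ 0, ∃ i, σ (φ i u) = v)
    (irr : ∀ K : AddSubgroup U, (∀ i, ∀ u ∈ K, φ i u ∈ K) → K = ⊥ ∨ K = ⊤) (u : U) : ζ u = 0 := by
  classical
  cases nonempty_fintype U
  cases nonempty_fintype V
  have ζ0 : ζ 0 = 0 := by simpa [add_self'] using hζ 0 0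
  have neg : ∀ u : U, -u = u := fun u => neg_eq_of_add_eq_zero_left (add_self' u)
  have γi : ∀ i u v, γ (φ i u) (φ i v) = γ u v := fun i u v => by
    have := hζ (φ i u) (φ i v)
    rw [← map_add, inv, inv, inv, hζ] at this
    exact (add_left_cancel this).symm
  have rng : ∀ w ≠ 0, ∀ w' u, γ w' u ∈ LinearMap.range (γ w) := fun w hw w' => by
    let K : AddSubgroup U :=
      { carrier := {w' | ∀ u, γ w' u ∈ LinearMap.range (γ w)}
        add_mem' := fun ha hb u => by rw [map_add]; exact add_mem (ha u) (hb u)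
        zero_mem' := fun u => by simp
        neg_mem' := fun h => by rwa [neg] }
    have := (irr K fun i a ha u => by
      obtain ⟨u, rfl⟩ := sur i u
      exact γi i a u ▸ ha u).resolve_left fun e => hw (e.le (show w ∈ K from fun u => ⟨u, rfl⟩))
    exact this.ge (AddSubgroup.mem_top w')
  obtain ⟨a, ha⟩ := exists_ne (0 : U)
  have mem : ∀ u, ζ u ∈ LinearMap.range (γ a) := fun u => by
    let K : AddSubgroup U :=
      { carrier := {u | ζ u ∈ LinearMap.range (γ a)}
        add_mem' := fun {b c} hb hc => show ζ _ ∈ _ from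
          hζ b c ▸ add_mem (add_mem hb hc) (rng a ha _ _)
        zero_mem' := show ζ _ ∈ LinearMap.range _ from ζ0 ▸ zero_mem _
        neg_mem' := fun h => by rwa [neg] }
    refine ((irr K fun i b hb => show ζ _ ∈ LinearMap.range _ by rw [inv]; exact hb).resolve_left fun e => ?_).ge
      (AddSubgroup.mem_top u)
    have : (univ : Finset V) ⊆ {0, σ a} := fun v _ => by
      by_cases hv : v = 0
      · simp [hv]
      obtain ⟨i, rfl⟩ := tr a ha v hv
      have : φ i a + a = 0 := e.le (show ζ (φ i a + a) ∈ LinearMap.range (γ a) by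
        rw [hζ, inv, add_self', zero_add]; exact rng a ha _ _)
      simp [add_right_cancel (this.trans (add_self' a).symm)]
    have := (card_le_card this).trans card_le_two
    rw [card_univ, ← Nat.card_eq_fintype_card] at this
    omega
  have ker : ∀ w ≠ 0, #{u | ζ (u + w) = ζ u} * Nat.card (LinearMap.range (γ a)) = Nat.card U :=
    fun w hw => by
      have e0 : LinearMap.range (γ a) = LinearMap.range (γ w) :=
        le_antisymm (by rintro _ ⟨u, rfl⟩; exact rng w hw _ _) (by rintro _ ⟨u, rfl⟩; exact rng a ha _ _)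
      have e1 := Submodule.card_eq_card_quotient_mul_card (LinearMap.ker (γ w))
      rw [Nat.card_congr (γ w).quotKerEquivRange.toEquiv] at e1
      rw [e0, e1]
      congr 1
      obtain ⟨t, ht⟩ := e0.le (mem w)
      rw [Nat.card_eq_fintype_card, ← card_univ]
      refine (card_nbij (fun u => u.1 + t) (fun u _ => ?_) (fun u _ v _ e => ?_)
        fun u hu => ⟨⟨u + t, ?_⟩, by simp, by simp [add_assoc, add_self']⟩).symm
      · simp only [coe_filter, mem_univ, true_and, Set.mem_ofPred_eq]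
        rw [add_comm, hζ, map_add, show γ w u = 0 from u.2, zero_add, ht, add_right_comm, add_self',
          zero_add]
      · exact Subtype.ext (add_right_cancel e)
      · simp only [coe_filter, mem_univ, true_and, Set.mem_ofPred_eq] at hu
        rw [add_comm, hζ, add_right_comm, add_eq_right] at hu
        rw [LinearMap.mem_ker, map_add, ht, add_comm, hu]
  have lev : ∀ u ≠ 0, #{v | v ≠ 0 ∧ ζ v = ζ u} = Nat.card V - 1 := fun u hu => by
    rw [Nat.card_eq_fintype_card, ← card_univ, ← card_erase_of_mem (mem_univ (0 : V))]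
    refine card_nbij σ (fun v hv => ?_) (fun v hv w hw e => inj _ _ e ?_) fun v hv => ?_
    · simp only [coe_filter, mem_univ, true_and, Set.mem_ofPred_eq] at hv
      simpa [σ0] using hv.1
    · simp only [coe_filter, mem_univ, true_and, Set.mem_ofPred_eq] at hv hw
      exact hv.2.trans hw.2.symm
    · have hv' : v ≠ 0 := by simpa using hv
      obtain ⟨i, rfl⟩ := tr u hu v hv'
      exact ⟨_, by simpa [inv] using mt (σ0 _).2 hv', rfl⟩
  have s1 : ∑ u, #{w | ζ (u + w) = ζ u} =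
      #{v | ζ v = 0} * #{v | ζ v = 0} + #{v | ¬ ζ v = 0} * (Nat.card V - 1) := by
    have : ∀ u, #{w | ζ (u + w) = ζ u} = #{v | ζ v = ζ u} := fun u =>
      card_nbij (u + ·) (fun _ h => by simpa using h) (fun _ _ _ _ e => add_left_cancel e)
        fun v hv => ⟨u + v, by simpa [← add_assoc, add_self'] using hv, by simp [← add_assoc, add_self']⟩
    rw [← sum_filter_add_sum_filter_not univ (fun v => ζ v = 0), ← smul_eq_mul, ← smul_eq_mul,
      ← sum_const, ← sum_const]
    refine congrArg₂ _ (sum_congr rfl fun u hu => ?_) (sum_congr rfl fun u hu => ?_)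
    · rw [this, (mem_filter.1 hu).2]
    · rw [this, ← lev u fun e => (mem_filter.1 hu).2 (e ▸ ζ0)]
      exact congrArg _ (filter_congr fun v _ => ⟨fun e => ⟨fun e' => (mem_filter.1 hu).2
        (e ▸ e' ▸ ζ0), e⟩, And.right⟩)
  have s2 : ∑ w, #{u | ζ (u + w) = ζ u} =
      Nat.card U + (Nat.card U - 1) * #{u | ζ (u + a) = ζ u} := by
    rw [← add_sum_erase _ _ (mem_univ 0), Nat.card_eq_fintype_card, ← card_univ,
      ← card_erase_of_mem (mem_univ (0 : U)), ← smul_eq_mul, ← sum_const]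
    refine congrArg₂ _ (by simp) (sum_congr rfl fun w hw => ?_)
    have : Finite (LinearMap.range (γ a)) := Finite.of_surjective _ (γ a).surjective_rangeRestrict
    exact Nat.eq_of_mul_eq_mul_right Nat.card_pos ((ker w (ne_of_mem_erase hw)).trans (ker a ha).symm)
  have s3 : ∑ u, #{w | ζ (u + w) = ζ u} = ∑ w, #{u | ζ (u + w) = ζ u} := by
    simp_rw [card_filter]; exact sum_comm
  have hU := Module.natCard_eq_pow_finrank (K := ZMod 2) (V := U)
  have hV := Module.natCard_eq_pow_finrank (K := ZMod 2) (V := V)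
  rw [Nat.card_zmod] at hU hV
  have := arith (g := #{v | ¬ ζ v = 0}) (hV ▸ h8) (hU ▸ Finite.one_lt_card)
    (by rw [card_filter_add_card_filter_not, ← hU, Nat.card_eq_fintype_card, card_univ])
    (hU ▸ Dvd.intro _ (ker a ha)) ?_ (by rw [← hU, ← hV, ← s1, s3, s2])
  · simpa using filter_eq_empty_iff.1 (card_eq_zero.1 this) (mem_univ u)
  by_cases h : ∃ v ≠ 0, ζ v = 0
  · obtain ⟨v, hv, e⟩ := h
    right
    rw [← hV, ← Nat.sub_add_cancel (Nat.card_pos (α := V)), ← lev v hv, e,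
      ← card_insert_of_notMem (a := 0) (by simp)]
    exact congrArg _ (Finset.ext fun w => by by_cases hw : w = 0 <;> simp [hw, ζ0])
  · push Not at h
    exact .inl (card_eq_one.2 ⟨0, Finset.ext fun w => by by_cases hw : w = 0 <;> simp [hw, ζ0, h]⟩)

end Cfsg.Agent.I2.Eoc
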