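import Cfsg.Agent.Lib.Suz2.Num

/-!
# Sums of two powers of two modulo `d = (2 ^ n - 1) / e`, `e ∣ n`
-/

set_option autoImplicit false

namespace Cfsg.Agent.I2.Eoc

/-- sums of two powers of two are distinct modulo `d` -/
def Num4 (n d : ℕ) : Prop := ∀ a < n, ∀ b < n, ∀ c < n, ∀ k < n, a ≠ b → c ≠ k →
  Nat.gcd d (2 ^ a + 2 ^ b) = 1 → (2 ^ a + 2 ^ b) % d = (2 ^ c + 2 ^ k) % d →
  a = c ∧ b = k ∨ a = k ∧ b = c

set_option synthInstance.maxSize 4096 in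
instance (n d : ℕ) : Decidable (Num4 n d) := by unfold Num4; infer_instance

theorem num4_small : ∀ n < 7, ∀ e ≤ n, 3 ≤ n → e ∣ n → e ∣ 2 ^ n - 1 →
    Num4 n ((2 ^ n - 1) / e) := by
  decide +kernel

theorem num4_mid : ∀ n < 21, ∀ e ≤ n, 7 ≤ n → e ∣ n → e ∣ 2 ^ n - 1 →
    2 * e < 2 ^ ((n + 3) / 4) := by
  decide +kernel

theorem eight_mul_lt {g : ℕ} (hg : 6 ≤ g) : 8 * g < 2 ^ g := by
  induction g, hg using Nat.le_induction with
  | base => norm_num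
  | succ n _ ih => rw [pow_succ]; omega

theorem bits {a b c k : ℕ} (h1 : a ≠ b) (h2 : c ≠ k) (e : 2 ^ a + 2 ^ b = 2 ^ c + 2 ^ k) :
    a = c ∧ b = k ∨ a = k ∧ b = c := by
  have key : ∀ a b c k : ℕ, a < b → 2 ^ a + 2 ^ b = 2 ^ c + 2 ^ k → k ≤ b := fun a b c k h e => by
    by_contra hlt
    have b1 : 2 ^ a < 2 ^ b := Nat.pow_lt_pow_right one_lt_two h
    have b2 := Nat.pow_le_pow_right two_pos (Nat.succ_le_of_lt (not_le.1 hlt))
    have b3 : 0 < 2 ^ c := by positivity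
    rw [pow_succ] at b2
    omega
  have key2 : ∀ a b c k : ℕ, a < b → c < k → 2 ^ a + 2 ^ b = 2 ^ c + 2 ^ k → a = c ∧ b = k :=
    fun a b c k h h' e => by
      obtain rfl := le_antisymm (key _ _ _ _ h e) (key _ _ _ _ h' e.symm)
      exact ⟨Nat.pow_right_injective le_rfl (Nat.add_right_cancel e), rfl⟩
  rcases h1.lt_or_gt with h | h <;> rcases h2.lt_or_gt with h' | h'
  · exact .inl (key2 _ _ _ _ h h' e)
  · exact .inr (key2 _ _ _ _ h h' (e.trans (add_comm _ _)))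
  · exact .inr (key2 _ _ _ _ h h' ((add_comm _ _).trans e)).symm
  · exact .inl (key2 _ _ _ _ h h' ((add_comm _ _).trans (e.trans (add_comm _ _)))).symm

theorem num4_large {n d e : ℕ} (hn : 7 ≤ n) (h : d * e = 2 ^ n - 1)
    (he : 2 * e < 2 ^ ((n + 3) / 4)) : Num4 n d := by
  obtain ⟨g, t, hg, hgt, h1⟩ : ∃ g t, (n + 3) / 4 = g ∧ n = t + g ∧ 4 * g ≤ n + 3 :=
    ⟨_, n - (n + 3) / 4, rfl, by omega, by omega⟩
  rw [hg] at he
  have h4 : 2 * 2 ^ t < d := by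
    by_contra hle
    have h6 : 1 < 2 ^ t := Nat.one_lt_two_pow (by omega)
    have h7 : d * e ≤ 2 * 2 ^ t * e := Nat.mul_le_mul_right _ (not_lt.1 hle)
    have h8 : 2 ^ t * (2 * e + 1) ≤ 2 ^ t * 2 ^ g := Nat.mul_le_mul_left _ he
    rw [h, hgt, pow_add] at h7
    have : 2 * 2 ^ t * e + 2 ^ t = 2 ^ t * (2 * e + 1) := by ring
    omega
  have hn1 : 2 ^ n ≡ 1 [MOD d] :=
    ((Nat.modEq_iff_dvd' Nat.one_le_two_pow).2 ⟨e, h.symm⟩).symm
  intro a ha b hb c hc k hk h2 h3 _ e0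
  have pw : ∀ x < n, ∀ y < n, (x ≤ y ∧ y ≤ x + t ∨ y + n ≤ x + t) → ∃ z, 2 ^ z ≤ 2 ^ t ∧
      (y + (n - x) = z ∨ y + (n - x) = z + n) ∧ 2 ^ y * 2 ^ (n - x) ≡ 2 ^ z [MOD d] := by
    rintro x hx y hy (h | h)
    · refine ⟨y - x, Nat.pow_le_pow_right two_pos (by omega), by omega, ?_⟩
      rw [← pow_add, show y + (n - x) = y - x + n by omega, pow_add]
      simpa using hn1.mul_left (2 ^ (y - x))
    · exact ⟨y + (n - x), Nat.pow_le_pow_right two_pos (by omega), by omega, by rw [pow_add]⟩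
  have key : ∀ x < n, (x ≤ a ∧ a ≤ x + t ∨ a + n ≤ x + t) ∧ (x ≤ b ∧ b ≤ x + t ∨ b + n ≤ x + t) ∧
      (x ≤ c ∧ c ≤ x + t ∨ c + n ≤ x + t) ∧ (x ≤ k ∧ k ≤ x + t ∨ k + n ≤ x + t) →
      a = c ∧ b = k ∨ a = k ∧ b = c := fun x hx ⟨e1, e2, e3, e4⟩ => by
    obtain ⟨a', a1, a2, a3⟩ := pw x hx a ha e1
    obtain ⟨b', b1, b2, b3⟩ := pw x hx b hb e2
    obtain ⟨c', c1, c2, c3⟩ := pw x hx c hc e3
    obtain ⟨k', k1, k2, k3⟩ := pw x hx k hk e4
    have e5 := Nat.ModEq.mul_right (2 ^ (n - x)) e0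
    rw [add_mul, add_mul] at e5
    have := bits (by omega) (by omega) (Nat.ModEq.eq_of_lt_of_lt
      ((a3.add b3).symm.trans (e5.trans (c3.add k3))) (by omega) (by omega))
    omega
  clear pw e0 hn1 h4 he h hg
  by_contra hcon
  have k1 := mt (key a ha) hcon
  have k2 := mt (key b hb) hcon
  have k3 := mt (key c hc) hcon
  have k4 := mt (key k hk) hcon
  clear key hcon
  omega

theorem num4 {n d : ℕ} (hn : 3 ≤ n) (h1 : d ∣ 2 ^ n - 1) (h2 : 2 ^ n - 1 ∣ d * n) : Num4 n d := by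
  obtain ⟨e, he⟩ := h1
  have h0 : 0 < 2 ^ n - 1 := by have := Nat.one_lt_two_pow (n := n) (by omega); omega
  have hd : 0 < d := Nat.pos_of_ne_zero fun e' => by rw [e', zero_mul] at he; omega
  have he0 : 0 < e := Nat.pos_of_ne_zero fun e' => by rw [e', mul_zero] at he; omega
  have h3 : e ∣ n := Nat.dvd_of_mul_dvd_mul_left hd (he ▸ h2)
  have h4 := Nat.le_of_dvd (by omega) h3
  have h5 : e ∣ 2 ^ n - 1 := ⟨d, by rw [he, mul_comm]⟩
  by_cases h : n < 7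
  · have := num4_small n h e h4 hn h3 h5
    rwa [he, Nat.mul_div_cancel _ he0] at this
  refine num4_large (by omega) he.symm ?_
  by_cases h' : n < 21
  · exact num4_mid n h' e h4 (by omega) h3 h5
  · have := eight_mul_lt (g := (n + 3) / 4) (by omega)
    omega

end Cfsg.Agent.I2.Eoc
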