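import Cfsg.Agent.Lib.I2.EOcL
import Cfsg.Agent.Lib.Suz2.Pres

/-!
# Sections as `F₂`-spaces: action, order, squaring map
-/

set_option autoImplicit false

namespace Cfsg.Agent.I2.Eoc

open Module Subgroup Cfsg.Agent.Suz2
open scoped commutatorElement

variable {G L M : Type*} [Group G] [AddCommGroup L] [Module (ZMod 2) L] [AddCommGroup M]
  [Module (ZMod 2) M] {C A H : Subgroup G} {p : G → L}

theorem eq_of_add {u v : L} (h : u + v = 0) : u = v := add_right_cancel (h.trans (add_self' v).symm)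

theorem add_one {t : G → L} (h : ∀ u ∈ C, ∀ v ∈ C, t (u * v) = t u + t v) : t 1 = 0 := by
  simpa [add_self'] using h 1 (one_mem _) 1 (one_mem _)

theorem add_inv {t : G → L} (h : ∀ u ∈ C, ∀ v ∈ C, t (u * v) = t u + t v) {u : G} (hu : u ∈ C) :
    t u⁻¹ = t u := eq_of_add (by rw [← h _ (inv_mem hu) u hu, inv_mul_cancel, add_one h])

omit [Module (ZMod 2) L] in
theorem pres_card (h : Pres C A p) : Nat.card L = A.relIndex C := by
  let φ : C →* Multiplicative L := MonoidHom.mk' (fun u => .ofAdd (p u)) fun u v => h.mul _ u.2 _ v.2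
  rw [relIndex, show A.subgroupOf C = φ.ker from Subgroup.ext fun u => (h.zero_iff _ u.2).symm,
    index_ker, (MonoidHom.range_eq_top (f := φ)).2 fun l => let ⟨u, hu, e⟩ := h.surj l; ⟨⟨u, hu⟩, e⟩, card_top]
  rfl

theorem exists_rep (h : Pres C A p) (hC : ∀ y ∈ H, ∀ u ∈ C, y * u * y⁻¹ ∈ C)
    (hA : ∀ y ∈ H, ∀ u ∈ A, y * u * y⁻¹ ∈ A) :
    ∃ ρ : H →* End (ZMod 2) L, ∀ y : H, ∀ u ∈ C, ρ y (p u) = p (y * u * (y : G)⁻¹) := by
  choose F hF using fun y : H => h.lift (fun u => p (y * u * (y : G)⁻¹))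
    (fun u hu v hv => by rw [← h.mul _ (hC _ y.2 u hu) _ (hC _ y.2 v hv), conj_mul])
    fun a ha ha' => (h.zero_iff _ (hC _ y.2 a ha)).2 (hA _ y.2 a ha')
  exact ⟨{ toFun := F
           map_one' := h.ext fun u hu => by simp [hF 1 u hu]
           map_mul' x y := h.ext fun u hu => by
             rw [Module.End.mul_apply, hF _ u hu, hF _ u hu, hF _ _ (hC _ y.2 u hu)]
             simp [mul_assoc] }, hF⟩

theorem comm_mem (hsq : ∀ x ∈ C, x * x ∈ A) {x y : G} (hx : x ∈ C) (hy : y ∈ C) : ⁅x, y⁆ ∈ A := by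
  rw [show ⁅x, y⁆ = x * x * (x⁻¹ * y * (x⁻¹ * y)) * (y * y)⁻¹ by group]
  exact mul_mem (mul_mem (hsq x hx) (hsq _ (mul_mem (inv_mem hx) hy))) (inv_mem (hsq y hy))

/-- the squaring map and its polarization -/
theorem exists_quad [hn : A.Normal] (h : Pres C A p) (hsq : ∀ x ∈ C, x * x ∈ A) (t : G → M)
    (t1 : ∀ a ∈ A, ∀ b ∈ A, t (a * b) = t a + t b) (t2 : ∀ x ∈ C, ∀ b ∈ A, t (x * b * x⁻¹) = t b) :
    ∃ (σ : L → M) (β : L →ₗ[ZMod 2] L →ₗ[ZMod 2] M), (∀ x ∈ C, σ (p x) = t (x * x)) ∧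
      (∀ x ∈ C, ∀ y ∈ C, β (p x) (p y) = t ⁅x, y⁆) ∧ ∀ u v, σ (u + v) = σ u + σ v + β u v := by
  have cm := @comm_mem _ _ _ _ hsq
  obtain ⟨σ, hσ⟩ := h.exists_fun (fun x => t (x * x)) fun u hu a _ ha => by
    have := hn.conj_mem a ha u⁻¹
    rw [show u * a * (u * a) = u * u * (u⁻¹ * a * u⁻¹⁻¹ * a) by group, t1 _ (hsq u hu) _ (mul_mem this ha),
      t1 _ this a ha, t2 _ (inv_mem hu) a ha, add_self', add_zero]
  obtain ⟨β, hβ⟩ := h.lift₂ h (fun x y => t ⁅x, y⁆) (fun u hu v hv w hw => by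
      rw [show ⁅u * v, w⁆ = u * ⁅v, w⁆ * u⁻¹ * ⁅u, w⁆ by group,
        t1 _ (hn.conj_mem _ (cm hv hw) u) _ (cm hu hw), t2 u hu _ (cm hv hw), add_comm])
    (fun u hu v hv w hw => by
      rw [show ⁅u, v * w⁆ = ⁅u, v⁆ * (v * ⁅u, w⁆ * v⁻¹) by group,
        t1 _ (cm hu hv) _ (hn.conj_mem _ (cm hu hw) v), t2 v hv _ (cm hu hw)])
    (fun a _ ha w hw => by
      rw [show ⁅a, w⁆ = a * (w * a⁻¹ * w⁻¹) by group, t1 a ha _ (hn.conj_mem _ (inv_mem ha) w),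
        t2 w hw _ (inv_mem ha), add_inv t1 ha, add_self'])
    fun w hw a _ ha => by
      rw [commutatorElement_def, t1 _ (hn.conj_mem _ ha w) _ (inv_mem ha), t2 w hw _ ha,
        add_inv t1 ha, add_self']
  refine ⟨σ, β, hσ, hβ, fun u v => ?_⟩
  obtain ⟨x, hx, rfl⟩ := h.surj u
  obtain ⟨y, hy, rfl⟩ := h.surj v
  have := hn.conj_mem _ (hsq x hx) y
  rw [← h.mul x hx y hy, hσ _ (mul_mem hx hy), hσ x hx, hσ y hy, hβ x hx y hy,
    show x * y * (x * y) = ⁅x, y⁆ * (y * (x * x) * y⁻¹ * (y * y)) by group,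
    t1 _ (cm hx hy) _ (mul_mem this (hsq y hy)), t1 _ this _ (hsq y hy), t2 y hy _ (hsq x hx), add_comm]

end Cfsg.Agent.I2.Eoc
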